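import Cfsg.Agent.H125.Hall.Defs
import Cfsg.Prelude.Def_Solvable

/-!
# S2223 by reduction mod 2: the row predicate (helper125)
-/

set_option autoImplicit false

namespace Cfsg.Agent.H125.Hall

open Subgroup

/-- `T` is a 2-subgroup such that for every subgroup `H ≥ T` of order prime to `p` every element which centralises `T`
is central in the centraliser of `O₂(H)`. -/
def CoreRow (p : ℕ) (G : Type*) [Group G] : Prop :=
  ∃ T : Subgroup G, IsPGroup 2 T ∧ ∀ H : Subgroup G, T ≤ H → ¬ p ∣ Nat.card H →
    ∀ g : G, (∀ x ∈ T, g * x = x * g) →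
      ∀ c : G, (∀ x : H, x ∈ Cfsg.pCore 2 H → c * (x : G) = x * c) → g * c = c * g

/-- elements of odd order of the normaliser of a Sylow 2-subgroup centralise it -/
def NRowS (G : Type*) [Group G] : Prop :=
  ∀ S : Sylow 2 G, ∀ g ∈ normalizer ((S : Subgroup G) : Set G), Odd (orderOf g) →
    ∀ s ∈ (S : Subgroup G), g * s = s * g

end Cfsg.Agent.H125.Hall
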