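import Cfsg.Agent.ChevalleyStructure.E6Min.Adjoint
import Cfsg.Agent.ChevalleyStructure.E6Min.Torus
import Cfsg.Agent.H125.Hall.CoreRow
import Cfsg.Prelude.Def_LieTwisted

/-!
# S2223, the rows `E₆(q)` and `²E₆(q)`: definitions (helper125)

The frame consists of the four pairwise orthogonal roots with indices 39, 44, 60, 71 (fixed by the graph automorphism).
Pieces of the 27-dimensional module (codes of the indices): roots (0,1): 5 7 11 24, (0,2): 2 6 14 25,
(0,3): 15 16 20 23, (1,2): 1 3 17 26, (1,3): 12 13 19 22, (2,3): 9 10 18 21, none: 0 4 8.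
-/

set_option autoImplicit false

namespace Cfsg.Agent.H125.Hall.E6

open Cfsg.Lie Cfsg.Agent.ChevalleyStructure.E6Min.Tables Cfsg.Agent.ChevalleyStructure.E6Min.Basic
  Cfsg.Agent.ChevalleyStructure.E6Min.Torus
open scoped Matrix

/-- the frame roots -/
def bI : Fin 4 → ℕ := ![39, 44, 60, 71]

section
variable {K : Type*} [Field K]

/-- `2 × 2`-matrices (of determinant 1) acting through the fundamental subgroup of the root `bI k` -/
def Ph (k : Fin 4) (A : Matrix (Fin 2) (Fin 2) K) : Matrix I27 I27 K :=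
  1 + (A 0 0 - 1) • (Nm K (bI k) * Nm K (71 - bI k)) + (A 1 1 - 1) • (Nm K (71 - bI k) * Nm K (bI k)) +
    A 0 1 • Nm K (bI k) + A 1 0 • Nm K (71 - bI k)

/-- `A` has determinant 1 and entries in `k0` -/
def SlIn (k0 : Subfield K) (A : Matrix (Fin 2) (Fin 2) K) : Prop := A.det = 1 ∧ ∀ i j, A i j ∈ k0

/-- `G` contains the root elements of the frame over `k0` -/
def FrIn (G : Subgroup (GL I27 K)) (k0 : Subfield K) : Prop :=
  ∀ k : Fin 4, ∀ t ∈ k0, zU (bI k) t ∈ G ∧ zU (71 - bI k) t ∈ G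

/-- `y` normalises the fundamental subgroups of the frame and permutes them by `s` -/
def Nrm (k0 : Subfield K) (s : Fin 4 → Fin 4) (y : GL I27 K) : Prop :=
  ∀ l : Fin 4, ∀ A, SlIn k0 A → ∃ A', SlIn k0 A' ∧ (y : Matrix I27 I27 K) * Ph l A = Ph (s l) A' * (y : Matrix I27 I27 K)

end

/-- `²E₆(q)` on the 27-dimensional module of `E₆(q²)` -/
def Z2 (K : Type*) [Field K] (q : ℕ) : Subgroup (GL I27 K) :=
  Subgroup.closure ({g | ∃ t : K, t ^ q = t ∧ ∃ r ∈ [e6p2, e6m2, e6p4, e6m4], g = zU r t} ∪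
    {g | ∃ t : K, ∃ rs ∈ [(e6p1, e6p6), (e6m1, e6m6), (e6p3, e6p5), (e6m3, e6m5)], g = zU rs.1 t * zU rs.2 (t ^ q)})

end Cfsg.Agent.H125.Hall.E6
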