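import Cfsg.Agent.H125.Hall.CoreRow
import Cfsg.Agent.H408.Pron.Defs
import Cfsg.Agent.H128.Hall.Central
import Cfsg.Prelude.Def_OddOrderLocal

/-!
# S2223: Hall subgroups of even order (helper125)
-/

set_option autoImplicit false

namespace Cfsg.Agent.H125.Hall

open Subgroup Cfsg.Agent.H408.Pron

universe u v

/-- every Hall subgroup of even order is pronormal -/
def EH (G : Type*) [Group G] : Prop :=
  ∀ H : Subgroup G, (Nat.card H).Coprime H.index → Even (Nat.card H) → Cfsg.IsPronormal H

theorem EH.of_po {G : Type u} [Group G] (h : PO G) : EH G := by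
  intro H hc he
  refine h H ?_
  rw [← Nat.not_even_iff_odd]
  intro h2
  exact Nat.not_coprime_of_dvd_of_dvd one_lt_two he.two_dvd h2.two_dvd hc

theorem EH.congr {G : Type u} {G' : Type v} [Group G] [Finite G] [Group G'] (e : G ≃* G') (h : EH G) : EH G' := by
  intro H hc he
  have hi : (H.comap e.toMonoidHom).index = H.index := Subgroup.index_comap_of_surjective _ e.surjective
  have hcard : Nat.card (H.comap e.toMonoidHom) = Nat.card H :=
    Nat.card_congr (e.toEquiv.subtypeEquiv fun a => by simp)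
  have h1 := h (H.comap e.toMonoidHom) (by rw [hi, hcard]; exact hc) (by rw [hcard]; exact he)
  have h2 := Cfsg.Agent.H128.Hall.isPronormal_map (f := e.toMonoidHom) e.surjective h1
  rwa [Subgroup.map_comap_eq_self_of_surjective e.surjective] at h2

theorem EH.of_hp_ov {G : Type u} [Group G] [Finite G] {p : ℕ} [hp : Fact p.Prime] (h1 : HP p G) (h2 : OV p G) :
    EH G := by
  intro H hc he
  by_cases hpH : p ∣ Nat.card H
  · obtain ⟨Q⟩ : Nonempty (Sylow p H) := inferInstance
    have hP : IsPGroup p ((Q : Subgroup H).map H.subtype) := Q.isPGroup'.map _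
    have hle : (Q : Subgroup H).map H.subtype ≤ H := Subgroup.map_subtype_le _
    have hidx : ¬ p ∣ ((Q : Subgroup H).map H.subtype).index := by
      rw [← Subgroup.relIndex_mul_index hle, hp.out.dvd_mul]
      rintro (h | h)
      · rw [Subgroup.relIndex, show ((Q : Subgroup H).map H.subtype).subgroupOf H = (Q : Subgroup H) from
          Subgroup.comap_map_eq_self_of_injective H.subtype_injective _] at h
        exact Q.not_dvd_index h
      · exact Nat.not_coprime_of_dvd_of_dvd hp.out.one_lt hpH h hc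
    have h3 := h2 (hP.toSylow hidx) H
    exact h3 (by simpa using hle)
  · exact h1 H hc he hpH

open scoped Pointwise in
/-- Hall subgroups of odd order, from S4350 -/
theorem pronormal_of_odd
    (hO : ∀ (π : Set ℕ), 2 ∉ π → ∀ (G : Type u) [Group G] [Finite G] (H K : Subgroup G), Cfsg.IsPiHall π H →
      Cfsg.IsPiHall π K → ∃ g : G, K = MulAut.conj g • H) {G : Type u} [Group G] [Finite G] (H : Subgroup G)
    (hH : (Nat.card H).Coprime H.index) (h2 : ¬ Even (Nat.card H)) : Cfsg.IsPronormal H := by
  intro g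
  set H' := H.map (MulAut.conj g).toMonoidHom with hH'
  set J := H ⊔ H' with hJ
  have hHJ : H ≤ J := le_sup_left
  have hgJ : H' ≤ J := le_sup_right
  have hc' : Nat.card H' = Nat.card H :=
    (Nat.card_congr (H.equivMapOfInjective _ (MulAut.conj g).injective).toEquiv).symm
  have key : ∀ X : Subgroup G, X ≤ J → Nat.card X = Nat.card H →
      Cfsg.IsPiHall {p : ℕ | p ∣ Nat.card H} (X.subgroupOf J) := by
    intro X hX hXc
    have h1 : Nat.card (X.subgroupOf J) = Nat.card X := Nat.card_congr (Subgroup.subgroupOfEquivOfLe hX).toEquiv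
    have h3 : X.index = H.index := by
      have h4 := X.card_mul_index
      rw [← H.card_mul_index, hXc] at h4
      exact Nat.eq_of_mul_eq_mul_left Nat.card_pos h4
    refine ⟨fun p _ hp => ?_, fun p hp hpH hpi => ?_⟩
    · rw [h1, hXc] at hp; exact hp
    · have h5 : p ∣ H.index := by
        rw [← h3, ← Subgroup.relIndex_mul_index hX]
        exact hpi.mul_right _
      exact Nat.not_coprime_of_dvd_of_dvd hp.one_lt hpH h5 hH
  obtain ⟨x, hx⟩ := hO {p : ℕ | p ∣ Nat.card H} (fun h => h2 (even_iff_two_dvd.2 h)) J _ _ (key H hHJ rfl)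
    (key H' hgJ hc')
  refine ⟨x, x.2, ?_⟩
  have h3 := congrArg (Subgroup.map J.subtype) hx
  rw [Subgroup.subgroupOf_map_subtype, inf_of_le_left hgJ] at h3
  rw [h3]
  ext y
  simp only [Subgroup.mem_map, Subgroup.mem_pointwise_smul_iff_inv_smul_mem, Subgroup.mem_subgroupOf]
  constructor
  · rintro ⟨z, hz, rfl⟩
    refine ⟨_, hz, ?_⟩
    simp [MulAut.smul_def]
    group
  · rintro ⟨z, hz, rfl⟩
    refine ⟨x * ⟨z, hHJ hz⟩ * x⁻¹, ?_, by simp⟩
    have : (MulAut.conj x)⁻¹ • (x * ⟨z, hHJ hz⟩ * x⁻¹ : J) = ⟨z, hHJ hz⟩ := by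
      rw [← map_inv, MulAut.smul_def, MulAut.conj_apply]
      group
    rw [this]
    exact hz

end Cfsg.Agent.H125.Hall
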